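import Cfsg.Agent.H47.MTt
import Cfsg.Agent.H334.Ore.M22
import Cfsg.Agent.H6.QO.Frame
import Cfsg.Agent.S2036

/-!
# `12.M₂₂`: every noncentral element is a commutator (QS row F1 of S2491, helper328)

The cover is the group `E` generated by the triples of the letters of helper47's monomial models of `4.M₂₂` (616 blocks,
labels modulo 8) and `3.M₂₂` (231 blocks, labels modulo 3) and of `M₂₂`.  For every representative `W r` of the 11
classes (list of H334) and every element `ζ` of the kernel there are words `X`, `K`, `C` with `[X, K] = C ζ W C⁻¹`.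
-/

set_option autoImplicit false
set_option maxRecDepth 100000

namespace Cfsg.Agent.H328.QO.MTt

open Cfsg Subgroup Cfsg.Agent.SporadicRecognition.CosetCert Cfsg.Agent.KFacts.OddLift.Basic
open Cfsg.Agent.KFacts.MulP.MTtModel (G22)
open Cfsg.Agent.KFacts.MulP.MTwentyTwo (b gen_eq ev_val run)
open Cfsg.Agent.H47.Mono Cfsg.Agent.H47.MTt Cfsg.Agent.H51.Mult Cfsg.Agent.H6.QO Cfsg.Agent.H777.Ore
open Cfsg.Agent.H47 (FourTab.P ThreeTab.P)
/-- words of the representatives of the classes of `M₂₂` -/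
def Wr (r : ℕ) : List ℕ := [[9, 4, 7, 4, 8, 3, 5, 0],
  [5, 6, 8, 3, 8, 5],
  [5, 2, 9, 4, 0, 5, 2],
  [9, 0, 2, 9, 7, 1, 4],
  [8, 6, 4, 2, 9, 2, 1],
  [6, 0, 8, 0, 2, 0, 2],
  [4, 3, 8, 2, 5, 1],
  [6, 9, 5, 9],
  [6, 8, 2, 9, 1, 5],
  [5, 3, 1, 9, 4, 6, 3],
  [7, 1, 9, 6, 3]].getD r []

/-- the certificates: `X`, `K`, `D` with `D X K = ζ W D K X` -/
def certs : List (List ℕ × List ℕ × List ℕ) := [
  ([7], [0], [1, 2, 9, 4]),
  ([9], [2, 5], [9, 4, 0]),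
  ([7], [1, 4], [4, 7, 9]),
  ([7, 8, 5, 9, 6], [8], [1, 2, 4]),
  ([7, 9, 6], [0, 2, 4], [4, 8]),
  ([9, 2, 9], [7, 1, 6, 8], [2, 0, 4]),
  ([0], [7], [1, 2, 9, 4]),
  ([4, 0], [7], [1, 2, 9, 4]),
  ([7, 4], [1], [3, 4, 9]),
  ([7, 4, 7, 9, 5], [8, 2, 6], [1, 5, 8, 6]),
  ([3, 5, 7, 5, 1], [9], [0, 3, 0, 6]),
  ([5, 9, 0, 5, 6], [4, 7, 0], [4, 0]),
  ([8], [6, 0, 4, 3], [7, 5, 0, 4]),
  ([3, 9], [5, 9, 6], [7, 9, 1, 3, 0]),
  ([7, 2, 5], [9], [0, 5, 9, 2]),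
  ([9], [0, 4], [3, 1, 5]),
  ([8, 5], [9, 7], [9, 5, 0]),
  ([3], [3, 8, 2, 8], [8, 0]),
  ([9], [0, 4, 9, 2], [4, 0, 9]),
  ([2, 7, 5], [8], [5, 9, 6, 5, 2]),
  ([0, 6, 4, 6], [9], [3, 0, 9, 4]),
  ([5], [6], [2, 9, 2, 6]),
  ([7], [5], [2, 7, 9, 3]),
  ([3], [1], [2, 9, 1, 6]),
  ([7, 5], [9], [0, 8, 2, 4]),
  ([6], [8], [9, 2, 7, 8, 2]),
  ([7, 5], [8], [6, 1, 9, 0]),
  ([8], [7, 5, 9], [4, 0, 9, 0]),
  ([8], [8, 7], [3, 6, 9, 4, 1, 3]),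
  ([4, 6], [9], [0, 9, 3, 9, 1]),
  ([8, 2], [6], [3, 4, 8, 1]),
  ([8], [6], [3, 4, 8, 1]),
  ([9, 2], [7], [8, 3, 6, 4, 0]),
  ([6], [2, 9, 0], [0, 9, 6, 5]),
  ([9], [6], [1, 9, 1, 5, 3]),
  ([3, 9], [6], [1, 9, 1, 5]),
  ([4, 8], [1], [5, 8, 1, 2, 4]),
  ([1], [4, 8], [8, 0, 3, 8]),
  ([0, 6], [3, 8], [9, 1, 4, 6]),
  ([2, 6], [0, 9], [0, 9, 7, 5]),
  ([9, 1, 3], [5], [3, 4, 6, 8]),
  ([4], [6, 9, 7], [3, 4, 6, 8, 5]),
  ([9, 2], [8, 1, 4], [5, 9]),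
  ([2, 1, 8], [0, 4], [4, 3, 0, 9, 1]),
  ([7, 0], [0, 5, 1, 9], [8]),
  ([6, 4], [8, 5, 0], [7, 9, 3, 8, 0]),
  ([1, 2], [9, 9, 4], [8, 3, 0]),
  ([5, 3, 7, 4], [8], [2, 5, 1, 8, 2]),
  ([2], [6, 8], [7, 9, 5, 8]),
  ([2], [8], [7, 9, 5, 8, 6]),
  ([7, 3], [1], [3, 7, 4, 9]),
  ([6, 4], [8, 0], [1, 9, 1, 5]),
  ([1, 9], [2], [8, 4, 1, 7, 9]),
  ([6], [8, 1], [0, 4, 9, 3, 1, 8]),
  ([9, 5], [7], [6, 1, 4, 3]),
  ([9, 5, 2], [6], [2, 7, 4]),
  ([8], [1, 4], [8, 4, 7]),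
  ([1], [6, 9], [9, 3, 5, 9, 4]),
  ([9, 7], [1], [0, 5, 0, 9, 2]),
  ([9, 3], [1], [6, 8, 2, 9, 7, 8]),
  ([1, 5], [9, 0], [7, 4, 6, 9]),
  ([1], [9, 4], [2, 8, 7, 5]),
  ([2, 9, 2], [4], [0, 5, 7, 5, 7]),
  ([9], [3, 4], [9, 5]),
  ([9, 5], [2], [5, 1, 8, 2, 5]),
  ([4, 8], [2], [5, 7, 8, 5, 8]),
  ([9, 2], [2, 0], [7, 0, 2, 8, 3]),
  ([5, 8], [1], [5, 9, 3, 7, 0]),
  ([5, 8], [0], [1, 9, 2, 7]),
  ([8], [2, 4], [0, 8, 3, 1]),
  ([8, 4, 0], [4], [4, 0, 3, 9, 0]),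
  ([3], [4, 8], [1, 4, 7, 4, 9]),
  ([7], [5, 9, 4], [3, 7, 5, 3]),
  ([9], [9, 5, 6], [2, 5, 3]),
  ([9, 3], [4, 9], [1, 7, 5, 3]),
  ([3, 9, 0], [8], [8, 5, 2, 7]),
  ([2, 4], [1, 9], [3, 4, 9, 5]),
  ([7], [5, 8], [6, 8, 7, 8, 4]),
  ([4], [8, 0], [0, 2, 0, 8, 3, 4]),
  ([0], [8, 6], [0, 4, 0, 3, 8]),
  ([4], [1, 8], [4, 8, 6, 4, 9, 3]),
  ([8], [1, 3], [9, 3, 8, 3]),
  ([0], [7, 5, 8], [8, 3, 9, 2, 8]),
  ([2, 6], [0, 5], [0, 3, 5, 8, 4]),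
  ([4], [9, 0], [6, 4, 9, 6]),
  ([4], [9, 6], [6, 4, 9, 6]),
  ([0, 8, 5], [4, 2, 9], [3]),
  ([4], [6, 8, 2, 7], [7]),
  ([8, 1], [3], [7, 9, 2, 1]),
  ([9], [2, 8, 6, 5], [1, 7, 9, 7]),
  ([5, 7], [9, 2, 5], [5, 9, 1]),
  ([5, 6], [9], [2, 9, 5, 0, 2, 7]),
  ([3, 4], [9, 4], [2, 6, 9, 4]),
  ([9, 5], [4, 4, 1, 6, 5], [3, 0]),
  ([4, 9, 3], [0], [1, 5, 3, 1]),
  ([8], [2, 0], [1, 6, 9]),
  ([4], [8, 0, 7], [8, 3, 5, 7]),
  ([8, 3], [5, 7], [6, 4, 1, 3]),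
  ([4], [8, 7], [8, 3, 5, 7]),
  ([6, 9], [9, 2], [1, 4, 3, 6]),
  ([9, 3], [4], [9, 1, 2, 8, 2]),
  ([8, 2], [5], [3, 8, 0, 8, 5]),
  ([3, 9], [5], [5, 9, 5, 9, 2]),
  ([2, 8, 4], [4], [5, 8, 3, 0, 3]),
  ([6, 1], [5, 8], [0, 9, 0, 2, 5]),
  ([8, 7], [4], [0, 8, 3, 6]),
  ([8, 1, 7], [4], [0, 8, 3, 6]),
  ([5], [7, 4, 8], [0, 8, 3, 0]),
  ([2], [8, 2, 8, 5], [1, 6, 8, 0, 5]),
  ([5, 3], [4, 6, 9], [0, 5, 8, 7]),
  ([3], [8, 3, 8, 5], [3, 9, 0, 4, 8]),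
  ([4], [6, 8], [1, 2, 6, 5, 1]),
  ([6, 3, 5], [8], [2, 0, 8, 6]),
  ([1], [4, 9, 4], [2, 7, 5, 0, 2]),
  ([4, 9], [6], [3, 9, 4, 8, 0]),
  ([8, 2], [1], [0, 9, 0, 6, 8]),
  ([8], [5], [5, 9, 3, 6]),
  ([9, 5], [5, 1], [8, 2, 6, 9, 6]),
  ([0, 9, 4], [9], [3, 9, 5, 6, 9, 7]),
  ([4, 9], [0], [1, 4, 9, 3, 8]),
  ([9, 7, 8], [2], [5, 7, 9, 4, 3]),
  ([9, 3], [1, 4, 9], [8, 1, 2]),
  ([0, 8], [5, 6], [8, 7, 8, 1, 5]),
  ([1], [8, 5], [0, 5, 2, 9, 7]),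
  ([6, 8, 5, 8], [8], [6, 4, 3, 8]),
  ([6, 5, 2], [9, 6], [6, 8]),
  ([9], [5], [2, 7, 4, 7, 8, 3]),
  ([8, 0], [9, 2], [0, 3, 5, 8, 2]),
  ([6], [4, 9], [3, 6, 1, 3, 8]),
  ([2, 4], [1, 6, 2, 8], [7, 5, 0]),
  ([0, 8, 6], [5], [7, 9, 3, 0]),
  ([5], [6, 8], [0, 9, 5, 9, 6])]

/-! ### The group -/

/-- the monomial parts -/
abbrev PG : Type := Equiv.Perm FourTab.P.Pt × Equiv.Perm ThreeTab.P.Pt

/-- the letters -/
noncomputable def p (i : ℕ) : PG := (ok4.gen i, ok3.gen i)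

/-- the cover -/
noncomputable abbrev E : Subgroup (PG × G22) := Dp p

theorem ev_E (w : List ℕ) : ev (lt (pr p) 5) w = ((ev (lt ok4.gen 5) w, ev (lt ok3.gen 5) w), ev (lt b 5) w) := by
  rw [ev_pr]
  exact Prod.ext (ev_prod ok4.gen ok3.gen w) rfl

/-- words in `E` -/
noncomputable def e (w : List ℕ) : E := ⟨ev (lt (pr p) 5) w, ev_mem (pr p) w⟩

theorem e_append (v w : List ℕ) : e (v ++ w) = e v * e w := Subtype.ext (ev_append _ v w)

theorem proj_e (w : List ℕ) : proj p (e w) = ev (lt b 5) w := by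
  change (ev (lt (pr p) 5) w).2 = _
  rw [ev_E]

theorem chk4w3 : FourTab.P.chkW w3 0 = true := by decide +kernel

theorem e_w0 : (e w0 : PG × G22) = ((FourTab.P.trans 2, 1), 1) := by
  change ev (lt (pr p) 5) w0 = _
  rw [ev_E, w0_4, w0_b, ok3.ev_eq (by decide +kernel) chk3w, Nat.cast_zero, Par.trans_zero]

theorem e_w3 : (e w3 : PG × G22) = ((1, τ), 1) := by
  change ev (lt (pr p) 5) w3 = _
  rw [ev_E, w3_b, ok3.ev_eq (by decide +kernel) chk3z, ok4.ev_eq (by decide +kernel) chk4w3, Nat.cast_zero,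
    Par.trans_zero]
  rfl

/-- the elements of the kernel -/
noncomputable def z (a c : ℕ) : E := e w0 ^ a * e w3 ^ c

theorem z_val (a c : ℕ) : (z a c : PG × G22) =
    ((FourTab.P.trans ((2 * a : ℕ) : ZMod FourTab.P.m), ThreeTab.P.trans ((c : ℕ) : ZMod ThreeTab.P.m)), 1) := by
  unfold z
  rw [Subgroup.coe_mul, SubmonoidClass.coe_pow, SubmonoidClass.coe_pow, e_w0, e_w3]
  simp only [Prod.pow_mk, Prod.mk_mul_mk, one_pow, mul_one, one_mul]
  rw [trans_pow, trans_eq_pow]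
  congr 3
  push_cast
  rw [mul_comm]

theorem proj_z (a c : ℕ) : proj p (z a c) = 1 := by
  change (z a c : PG × G22).2 = 1
  rw [z_val]

/-! ### The kernel -/

theorem mem4 {u : PG × G22} (hu : u ∈ E) : (u.1.1, u.2) ∈ D4 := by
  have h1 : (Dp p).map (MonoidHom.prodMap (MonoidHom.fst (Equiv.Perm FourTab.P.Pt) (Equiv.Perm ThreeTab.P.Pt))
      (MonoidHom.id G22)) = Dp ok4.gen := map_clo _ (pr p) 5
  change _ ∈ Dp ok4.gen
  rw [← h1]
  exact ⟨u, hu, rfl⟩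

theorem mem3 {u : PG × G22} (hu : u ∈ E) : (u.1.2, u.2) ∈ Dp ok3.gen := by
  have h1 : (Dp p).map (MonoidHom.prodMap (MonoidHom.snd (Equiv.Perm FourTab.P.Pt) (Equiv.Perm ThreeTab.P.Pt))
      (MonoidHom.id G22)) = Dp ok3.gen := map_clo _ (pr p) 5
  rw [← h1]
  exact ⟨u, hu, rfl⟩

theorem exists_four {u : PG × G22} (hu : u ∈ E) (h : u.2 = 1) :
    ∃ a < 4, u.1.1 = FourTab.P.trans ((2 * a : ℕ) : ZMod FourTab.P.m) := by
  classical
  have := fin4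
  have h1 : (⟨(u.1.1, u.2), mem4 hu⟩ : D4) ∈ zpowers z4 := ker4 h
  obtain ⟨a, ha, he⟩ := (isOfFinOrder_of_finite z4).mem_zpowers_iff_mem_range_orderOf.1 h1 |> Finset.mem_image.1
  rw [Finset.mem_range, order_z4] at ha
  refine ⟨a, ha, ?_⟩
  have h2 : (ev (lt (pr ok4.gen) 5) w0) ^ a = (u.1.1, u.2) := congrArg Subtype.val he
  rw [w0_B4, Prod.pow_mk] at h2
  have h3 : FourTab.P.trans 2 ^ a = u.1.1 := congrArg Prod.fst h2
  rw [← h3, trans_pow]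
  congr 1
  push_cast
  rw [mul_comm]

theorem exists_three {u : PG × G22} (hu : u ∈ E) (h : u.2 = 1) :
    ∃ c < 3, u.1.2 = ThreeTab.P.trans ((c : ℕ) : ZMod ThreeTab.P.m) := by
  classical
  have h1 : (Dp p3).map (MonoidHom.prodMap W.subtype (MonoidHom.id G22)) = Dp ok3.gen := map_clo _ (pr p3) 5
  have h2 := mem3 hu
  rw [← h1] at h2
  obtain ⟨v, hv, hvu⟩ := h2
  have h3 : (v.1 : Equiv.Perm ThreeTab.P.Pt) = u.1.2 := congrArg Prod.fst hvu
  have h4 : v.2 = u.2 := congrArg Prod.snd hvu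
  have h5 : (⟨v, hv⟩ : D3) ∈ zpowers z3 := ker3' (h4.trans h)
  have hf : IsOfFinOrder z3 := by
    rw [← orderOf_pos_iff, order_z3]
    norm_num
  obtain ⟨c, hc, he⟩ := hf.mem_zpowers_iff_mem_range_orderOf.1 h5 |> Finset.mem_image.1
  rw [Finset.mem_range, order_z3] at hc
  refine ⟨c, hc, ?_⟩
  have h6 : (ev (lt (pr p3) 5) w3) ^ c = v := congrArg Subtype.val he
  rw [w3_D, Prod.pow_mk] at h6
  have h7 : tW ^ c = v.1 := congrArg Prod.fst h6
  rw [← h3, ← h7, trans_eq_pow]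
  rfl

theorem exists_z {u : E} (hu : proj p u = 1) : ∃ a < 4, ∃ c < 3, u = z a c := by
  obtain ⟨a, ha, h1⟩ := exists_four u.2 hu
  obtain ⟨c, hc, h2⟩ := exists_three u.2 hu
  refine ⟨a, ha, c, hc, Subtype.ext ?_⟩
  rw [z_val]
  exact Prod.ext (Prod.ext h1 h2) hu

theorem z_comm (a c : ℕ) (x : E) : x * z a c = z a c * x := by
  have h1 : E ≤ centralizer ({(z a c : PG × G22)} : Set (PG × G22)) := by
    change clo (pr p) 5 ≤ _
    rw [clo, closure_le]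
    rintro _ ⟨i, -, rfl⟩
    refine mem_centralizer_singleton_iff.2 ?_
    rw [z_val]
    refine Prod.ext (Prod.ext ?_ ?_) ?_
    · exact ok4.gen_trans i _
    · exact ok3.gen_trans i _
    · change b i * 1 = 1 * b i
      rw [mul_one, one_mul]
  exact Subtype.ext (mem_centralizer_singleton_iff.1 (h1 x.2))

theorem cen : (proj p).ker ≤ center E := by
  intro k hk
  obtain ⟨a, -, c, -, rfl⟩ := exists_z hk
  rw [mem_center_iff]
  exact z_comm a c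

theorem z_inj {a a' c c' : ℕ} (ha : a < 4) (ha' : a' < 4) (hc : c < 3) (hc' : c' < 3) (h : z a c = z a' c') :
    a = a' ∧ c = c' := by
  have h1 : (z a c : PG × G22) = z a' c' := congrArg Subtype.val h
  rw [z_val, z_val] at h1
  have h2 := Par.trans_inj FourTab.P (by decide) (congrArg (fun x : PG × G22 => x.1.1) h1)
  have h3 := Par.trans_inj ThreeTab.P (by decide) (congrArg (fun x : PG × G22 => x.1.2) h1)
  have h4 : ((2 * a : ℕ) : ZMod 8) = ((2 * a' : ℕ) : ZMod 8) := h2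
  have h5 : ((c : ℕ) : ZMod 3) = ((c' : ℕ) : ZMod 3) := h3
  rw [ZMod.natCast_eq_natCast_iff] at h4 h5
  have h6 : (2 * a) % 8 = (2 * a') % 8 := h4
  have h7 : c % 3 = c' % 3 := h5
  omega

/-! ### Comparison of words -/

/-- the labels of the first block -/
noncomputable def chkL (P : Par) (w w' : List ℕ) (d : ℕ) : Bool :=
  P.run w 0 fun _ a => P.run w' 0 fun _ a' => Nat.beq (Nat.mod a P.m) (Nat.mod (Nat.add a' d) P.m)

theorem chkL_iff {P : Par} {w w' : List ℕ} {d : ℕ} (h : chkL P w w' d = true) :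
    P.lab 0 w % P.m = (P.lab 0 w' + d) % P.m := by
  unfold chkL at h
  rw [P.run_eq, P.run_eq] at h
  exact Nat.eq_of_beq_eq_true h

/-- `w = z a c * w'` -/
noncomputable def chk2 (w w' : List ℕ) (a c : ℕ) : Bool :=
  (w.all fun y => Nat.blt y 10) && ((w'.all fun y => Nat.blt y 10) &&
    (((List.range 24).all fun j => Nat.beq (run w j) (run w' j)) &&
      (chkL FourTab.P w w' (2 * a) && chkL ThreeTab.P w w' c)))

theorem all_lt10 {w : List ℕ} (h : (w.all fun y => Nat.blt y 10) = true) : ∀ y ∈ w, y < 2 * 5 := fun y hy =>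
  Nat.blt_eq.mp (List.all_eq_true.1 h y hy)

theorem run_sound {w w' : List ℕ} (h1 : ∀ y ∈ w, y < 2 * 5) (h2 : ∀ y ∈ w', y < 2 * 5)
    (h : ((List.range 24).all fun j => Nat.beq (run w j) (run w' j)) = true) : ev (lt b 5) w = ev (lt b 5) w' := by
  refine Subtype.ext (Equiv.ext fun j => Fin.ext ?_)
  rw [ev_val h1, ev_val h2]
  exact Nat.eq_of_beq_eq_true (List.all_eq_true.1 h j (List.mem_range.2 j.2))

theorem eq_of_chk2 {w w' : List ℕ} {a c : ℕ} (ha : a < 4) (hc : c < 3) (h : chk2 w w' a c = true) :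
    e w = z a c * e w' := by
  unfold chk2 at h
  simp only [Bool.and_eq_true] at h
  obtain ⟨h1, h2, h3, h4, h5⟩ := h
  have h1' := all_lt10 h1
  have h2' := all_lt10 h2
  have hb := run_sound h1' h2' h3
  obtain ⟨a', ha', c', hc', he⟩ := exists_z (u := e w * (e w')⁻¹) (by
    rw [map_mul, map_inv, proj_e, proj_e, hb, mul_inv_cancel])
  have he' : e w = z a' c' * e w' := by rw [← he, inv_mul_cancel_right]
  -- compare the labels
  have hv : (e w : PG × G22) = (z a' c' : PG × G22) * (e w' : PG × G22) := by rw [he', Subgroup.coe_mul]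
  have hw : ∀ v : List ℕ, (e v : PG × G22) = ((ev (lt ok4.gen 5) v, ev (lt ok3.gen 5) v), ev (lt b 5) v) := ev_E
  rw [z_val, hw, hw] at hv
  have g4 : ev (lt ok4.gen 5) w = FourTab.P.trans ((2 * a' : ℕ) : ZMod FourTab.P.m) * ev (lt ok4.gen 5) w' :=
    congrArg (fun x : PG × G22 => x.1.1) hv
  have g3 : ev (lt ok3.gen 5) w = ThreeTab.P.trans ((c' : ℕ) : ZMod ThreeTab.P.m) * ev (lt ok3.gen 5) w' :=
    congrArg (fun x : PG × G22 => x.1.2) hv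
  have k4 := congrArg (fun σ : Equiv.Perm FourTab.P.Pt => (σ ((⟨0, by decide⟩, 0) : FourTab.P.Pt)).2) g4
  have k3 := congrArg (fun σ : Equiv.Perm ThreeTab.P.Pt => (σ ((⟨0, by decide⟩, 0) : ThreeTab.P.Pt)).2) g3
  rw [Equiv.Perm.mul_apply, Par.trans_apply, (ok4.ev_apply h1' _).2] at k4
  rw [Equiv.Perm.mul_apply, Par.trans_apply, (ok3.ev_apply h1' _).2] at k3
  dsimp only at k4 k3
  rw [(ok4.ev_apply h2' _).2] at k4
  rw [(ok3.ev_apply h2' _).2] at k3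
  dsimp only at k4 k3
  have m4 : ((FourTab.P.lab 0 w : ℕ) : ZMod 8) = ((FourTab.P.lab 0 w' + 2 * a' : ℕ) : ZMod 8) := by
    rw [Nat.cast_add]
    have : (0 : ZMod 8) + ((FourTab.P.lab 0 w : ℕ) : ZMod 8) = 0 + ((FourTab.P.lab 0 w' : ℕ) : ZMod 8) +
        ((2 * a' : ℕ) : ZMod 8) := k4
    simpa using this
  have m3 : ((ThreeTab.P.lab 0 w : ℕ) : ZMod 3) = ((ThreeTab.P.lab 0 w' + c' : ℕ) : ZMod 3) := by
    rw [Nat.cast_add]
    have : (0 : ZMod 3) + ((ThreeTab.P.lab 0 w : ℕ) : ZMod 3) = 0 + ((ThreeTab.P.lab 0 w' : ℕ) : ZMod 3) +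
        ((c' : ℕ) : ZMod 3) := k3
    simpa using this
  rw [ZMod.natCast_eq_natCast_iff] at m4 m3
  have n4 : FourTab.P.lab 0 w % 8 = (FourTab.P.lab 0 w' + 2 * a') % 8 := m4
  have n3 : ThreeTab.P.lab 0 w % 3 = (ThreeTab.P.lab 0 w' + c') % 3 := m3
  have q4 : FourTab.P.lab 0 w % 8 = (FourTab.P.lab 0 w' + 2 * a) % 8 := chkL_iff h4
  have q3 : ThreeTab.P.lab 0 w % 3 = (ThreeTab.P.lab 0 w' + c) % 3 := chkL_iff h5
  have e4 : a' = a := by omega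
  have e3 : c' = c := by omega
  rw [he', e4, e3]

/-! ### The commutators -/

/-- one certificate -/
noncomputable def okC (r a c : ℕ) (t : List ℕ × List ℕ × List ℕ) : Bool :=
  chk2 (t.2.2 ++ (t.1 ++ t.2.1)) (Wr r ++ (t.2.2 ++ (t.2.1 ++ t.1))) a c

theorem isC_of_okC {r a c : ℕ} (ha : a < 4) (hc : c < 3) {t : List ℕ × List ℕ × List ℕ} (h : okC r a c t = true) :
    IsC (z a c * e (Wr r)) := by
  have h1 := eq_of_chk2 ha hc h
  simp only [e_append] at h1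
  refine IsC.of_conj (e t.2.2)⁻¹ ⟨e t.1, e t.2.1, ?_⟩
  rw [inv_inv]
  -- `D X K = z W D K X`
  have h2 : z a c * e (Wr r) = e t.2.2 * (e t.1 * e t.2.1) * (e t.2.2 * (e t.2.1 * e t.1))⁻¹ := by
    rw [h1]
    group
  rw [h2]
  group

theorem chk_all : ((List.range 11).all fun r => (List.range 4).all fun a => (List.range 3).all fun c =>
    okC r a c (certs.getD (r * 12 + a * 3 + c) ([], [], []))) = true := by decide +kernel

theorem isC_rep {r a c : ℕ} (hr : r < 11) (ha : a < 4) (hc : c < 3) : IsC (z a c * e (Wr r)) := by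
  have h := chk_all
  rw [List.all_eq_true] at h
  have h1 := h r (List.mem_range.2 hr)
  rw [List.all_eq_true] at h1
  have h2 := h1 a (List.mem_range.2 ha)
  rw [List.all_eq_true] at h2
  exact isC_of_okC ha hc (h2 c (List.mem_range.2 hc))

/-! ### The extension -/

theorem mem_comm {g : E} (h : IsC g) : g ∈ commutator E := by
  obtain ⟨x, y, rfl⟩ := h
  exact commutator_mem_commutator (mem_top x) (mem_top y)

theorem chk_z3 : chk2 [3, 6] [6, 3] 0 1 = true := by decide +kernel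

theorem z3_mem' : e w3 ∈ commutator E := by
  have h1 := eq_of_chk2 (by norm_num) (by norm_num) chk_z3
  have h2 : z 0 1 = e w3 := by rw [z, pow_zero, pow_one, one_mul]
  rw [h2, show ([3, 6] : List ℕ) = [3] ++ [6] from rfl, show ([6, 3] : List ℕ) = [6] ++ [3] from rfl, e_append,
    e_append] at h1
  refine mem_comm ⟨e [3], e [6], ?_⟩
  have h3 : e w3 = e [3] * e [6] * (e [6] * e [3])⁻¹ := by rw [h1, mul_inv_cancel_right]
  rw [h3]
  group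

theorem z4_mem' : e w0 ∈ commutator E := by
  have h1 := mem_comm (isC_rep (r := 0) (a := 1) (c := 0) (by norm_num) (by norm_num) (by norm_num))
  have h2 := mem_comm (isC_rep (r := 0) (a := 0) (c := 0) (by norm_num) (by norm_num) (by norm_num))
  have h3 := mul_mem h1 (inv_mem h2)
  have h4 : z 1 0 * e (Wr 0) * (z 0 0 * e (Wr 0))⁻¹ = e w0 := by
    rw [z, z, pow_zero, pow_zero, pow_one, mul_one, mul_one, one_mul, mul_inv_cancel_right]
  rwa [h4] at h3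

theorem perf : commutator E = ⊤ := by
  rw [eq_top_iff]
  intro u _
  have h1 : proj p u ∈ (commutator E).map (proj p) := by
    rw [commutator_def, Subgroup.map_commutator, Subgroup.map_top_of_surjective _ (proj_surj p), ← commutator_def,
      perfect_G22]
    exact mem_top _
  obtain ⟨v, hv, hvu⟩ := h1
  obtain ⟨a, -, c, -, h2⟩ := exists_z (u := v⁻¹ * u) (by rw [map_mul, map_inv, hvu, inv_mul_cancel])
  have h3 : u = v * z a c := by rw [← h2, mul_inv_cancel_left]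
  rw [h3, z]
  exact mul_mem hv (mul_mem (pow_mem z4_mem' a) (pow_mem z3_mem' c))

/-- **`12.M₂₂`** -/
theorem pce : PCE (proj p) := ⟨proj_surj p, cen, perf⟩

theorem card_ker : Nat.card (proj p).ker = 12 := by
  have h1 : Function.Bijective (fun x : Fin 4 × Fin 3 => (⟨z x.1 x.2, proj_z x.1 x.2⟩ : (proj p).ker)) := by
    constructor
    · rintro ⟨a, c⟩ ⟨a', c'⟩ h
      obtain ⟨h2, h3⟩ := z_inj a.2 a'.2 c.2 c'.2 (congrArg Subtype.val h)
      exact Prod.ext (Fin.ext h2) (Fin.ext h3)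
    · rintro ⟨u, hu⟩
      obtain ⟨a, ha, c, hc, rfl⟩ := exists_z hu
      exact ⟨(⟨a, ha⟩, ⟨c, hc⟩), rfl⟩
  rw [← Nat.card_congr (Equiv.ofBijective _ h1), Nat.card_prod, Nat.card_fin, Nat.card_fin]

/-! ### The classes of `M₂₂` -/

open Cfsg.Agent.SporadicA.GolayBase (idx)
open Cfsg.Agent.SporadicA.GolayPerm (papp)
open Cfsg.Agent.SporadicStructure.M24El (ok el idx_el_smul)
open Cfsg.Agent.SporadicStructure (M12Core.pos M12Core.ofPos M12Core.pos_ofPos)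
open Cfsg.Agent.H729.M22Deg (inc)
open Cfsg.Agent.KFacts.MulP (MTtModel.equiv)

theorem pos_eq_idx (q : GolayPt) : M12Core.pos q = idx q := by
  cases q <;> rfl

theorem equiv_val (x : Spor.M22) (j : Fin 24) : ((((MTtModel.equiv x : G22) : Equiv.Perm (Fin 24)) j : Fin 24) : ℕ) =
    M12Core.pos ((x : Equiv.Perm GolayPt) (M12Core.ofPos j)) := rfl

theorem equiv_eq {x : Spor.M22} {P : ℕ} (hP : ok P = true) (hx : inc x = el P) {w : List ℕ} (hw : ∀ y ∈ w, y < 2 * 5)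
    (h : ((List.range 24).all fun j => Nat.beq (papp P j) (run w j)) = true) :
    MTtModel.equiv x = ev (lt b 5) w := by
  refine Subtype.ext (Equiv.ext fun j => Fin.ext ?_)
  rw [equiv_val, ev_val hw, pos_eq_idx]
  have h1 : (x : Equiv.Perm GolayPt) (M12Core.ofPos j) = el P • M12Core.ofPos j := by
    rw [← hx]
    rfl
  rw [h1, idx_el_smul hP, ← pos_eq_idx, M12Core.pos_ofPos j.2]
  exact Nat.eq_of_beq_eq_true (List.all_eq_true.1 h j (List.mem_range.2 j.2))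

theorem chk_D : (Cfsg.Agent.H334.Ore.M22Data.D.all fun r => (List.range 11).any fun i =>
    ((Wr i).all fun y => Nat.blt y 10) && (List.range 24).all fun j => Nat.beq (papp r.c j) (run (Wr i) j)) = true := by
  decide +kernel

theorem exists_rep (x : Spor.M22) : x = 1 ∨ ∃ i < 11, IsConj (ev (lt b 5) (Wr i)) (MTtModel.equiv x) := by
  rcases Cfsg.Agent.H334.Ore.M22.cov x with h1 | ⟨r, hr, y, hy, hc⟩
  · exact Or.inl h1
  · right
    have h1 := chk_D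
    rw [List.all_eq_true] at h1
    obtain ⟨i, hi, hi'⟩ := List.any_eq_true.1 (h1 r hr)
    rw [Bool.and_eq_true] at hi'
    have hok : ok r.c = true := by
      have h2 := Cfsg.Agent.H334.Ore.M22.hA' r hr
      unfold Cfsg.Agent.H334.Ore.Mat.chkA at h2
      rw [Bool.and_eq_true] at h2
      exact (Cfsg.Agent.H334.Ore.Mat.inG_iff h2.1).1
    refine ⟨i, List.mem_range.1 hi, ?_⟩
    rw [← equiv_eq hok hy (all_lt10 hi'.1) hi'.2]
    exact MTtModel.equiv.toMonoidHom.map_isConj hc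

/-- every noncentral element is a commutator -/
theorem nc : NC E := by
  intro u hu
  have hpu : MTtModel.equiv (MTtModel.equiv.symm (proj p u)) = proj p u := MulEquiv.apply_symm_apply _ _
  rcases exists_rep (MTtModel.equiv.symm (proj p u)) with h1 | ⟨i, hi, hc⟩
  · rw [h1, map_one] at hpu
    obtain ⟨a, -, c, -, rfl⟩ := exists_z hpu.symm
    exact absurd (mem_center_iff.2 (z_comm a c)) hu
  · rw [hpu, ← proj_e] at hc
    obtain ⟨c, hc⟩ := isConj_iff.1 hc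
    obtain ⟨d, hd⟩ := proj_surj p c
    obtain ⟨a, ha, k, hk, he⟩ := exists_z (u := d⁻¹ * u * d * (e (Wr i))⁻¹) (by
      rw [map_mul, map_mul, map_mul, map_inv, map_inv, hd, ← hc]
      group)
    have h2 : u = d * (z a k * e (Wr i)) * d⁻¹ := by
      rw [← he]
      group
    rw [h2]
    exact (isC_rep hi ha hk).conj d

/-- **Every noncentral element of a perfect central extension of `M₂₂` is a commutator.** -/
theorem row_m22 : RowN ↥Cfsg.Spor.M22 := by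
  refine RowN.of_univ (σ := MTtModel.equiv.symm.toMonoidHom.comp (proj p)) Cfsg.Agent.S2036.result
    (pce.congr MTtModel.equiv.symm) ?_ nc
  rw [ker_congr, card_ker, Nat.card_eq_fintype_card, Fintype.card_multiplicative, ZMod.card]

end Cfsg.Agent.H328.QO.MTt
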